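import Mathlib
import Cfsg.Agent.Lib.Compute.Ru.Core

/-!
# A subgroup with two double cosets besides itself

If `H` has index `416` in `G`, with subgroups `U`, `V` maximal in `H` of indices `100` and `315`, and `a`, `b` conjugate
`U`, `V` into `H` but do not normalize `H`, then `H` is maximal and each `H ∩ xHx⁻¹` with `x ∉ H` is maximal in `H`.
-/

set_option autoImplicit false

namespace Cfsg.Agent.Lib.Compute.G24J2

open MulAction

variable {G : Type*} [Group G] [Finite G] (H : Subgroup G)

/-- The two-point stabilizer. -/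
abbrev SS (x : G) : Subgroup H := (H ⊓ H.map (MulAut.conj x).toMonoidHom).subgroupOf H

theorem mem_SS {x : G} {h : H} : h ∈ SS H x ↔ x⁻¹ * h * x ∈ H := by
  rw [SS, Subgroup.mem_subgroupOf, Subgroup.mem_inf]
  constructor
  · rintro ⟨-, k, hk, e⟩
    have : x⁻¹ * (h : G) * x = k := by
      rw [← e]
      simp [mul_assoc]
    rw [this]
    exact hk
  · intro h1
    refine ⟨h.2, x⁻¹ * h * x, h1, ?_⟩
    simp [mul_assoc]

theorem stab_eq (x : G) : stabilizer H ((x : G) : G ⧸ H) = SS H x := by
  ext h
  rw [mem_stabilizer_iff, mem_SS]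
  have e : h • ((x : G) : G ⧸ H) = (((h : G) * x : G) : G ⧸ H) := rfl
  rw [e, QuotientGroup.eq]
  constructor
  · intro h1
    have h2 := H.inv_mem h1
    simpa [mul_assoc] using h2
  · intro h1
    have h2 := H.inv_mem h1
    simpa [mul_assoc] using h2

theorem orbit_ncard (x : G) : (orbit H ((x : G) : G ⧸ H)).ncard = (SS H x).index := by
  rw [← stab_eq, index_stabilizer]

section Main

variable {H} {U V : Subgroup H} {a b : G}

theorem SS_eq_of_coatom {c : G} {W : Subgroup H} (hW : IsCoatom W) (hc : W ≤ SS H c) (hn : ∃ h : H, c⁻¹ * h * c ∉ H) :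
    SS H c = W := by
  by_contra hne
  have h1 : W < SS H c := lt_of_le_of_ne hc (Ne.symm hne)
  have h2 := hW.2 _ h1
  obtain ⟨h, hh⟩ := hn
  apply hh
  rw [← mem_SS, h2]
  trivial

/-- The map on two-point stabilizers. -/
theorem SS_conj (c : G) (h k : H) : SS H (h * c * k) = (SS H c).map (MulAut.conj h).toMonoidHom := by
  ext y
  rw [mem_SS]
  constructor
  · intro hy
    refine ⟨h⁻¹ * y * h, ?_, by simp [mul_assoc]⟩
    rw [SetLike.mem_coe, mem_SS]
    have e : c⁻¹ * ((h⁻¹ * y * h : H) : G) * c =
        (k : G) * (((h : G) * c * k)⁻¹ * y * ((h : G) * c * k)) * (k : G)⁻¹ := by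
      push_cast
      group
    rw [e]
    exact H.mul_mem (H.mul_mem k.2 hy) (H.inv_mem k.2)
  · rintro ⟨z, hz, rfl⟩
    rw [SetLike.mem_coe, mem_SS] at hz
    have e : ((h : G) * c * k)⁻¹ * ((MulAut.conj h).toMonoidHom z : H) * ((h : G) * c * k) =
        (k : G)⁻¹ * (c⁻¹ * z * c) * k := by
      simp only [MulEquiv.toMonoidHom_eq_coe, MonoidHom.coe_coe, MulAut.conj_apply]
      push_cast
      group
    rw [e]
    exact H.mul_mem (H.mul_mem (H.inv_mem k.2) hz) k.2

theorem coatom_conj {W : Subgroup H} (hW : IsCoatom W) (h : H) : IsCoatom (W.map (MulAut.conj h).toMonoidHom) :=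
  ((MulAut.conj h).mapSubgroup.isCoatom_iff W).mpr hW

/-- The main statement. -/
theorem extPrim (hU : IsCoatom U) (hV : IsCoatom V) (hUi : U.index = 100) (hVi : V.index = 315)
    (hG : Nat.card G = 416 * Nat.card H) (haU : U ≤ SS H a) (hbV : V ≤ SS H b)
    (ha : ∃ h : H, a⁻¹ * h * a ∉ H) (hb : ∃ h : H, b⁻¹ * h * b ∉ H) :
    IsCoatom H ∧ ∀ x : G, x ∉ H → IsCoatom ((H ⊓ H.map (MulAut.conj x).toMonoidHom).subgroupOf H) := by
  classical
  have hSa := SS_eq_of_coatom hU haU ha
  have hSb := SS_eq_of_coatom hV hbV hb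
  have hidx : Nat.card (G ⧸ H) = 416 := by
    have h1 := H.card_eq_card_quotient_mul_card_subgroup
    rw [hG] at h1
    exact (Nat.eq_of_mul_eq_mul_right Nat.card_pos h1).symm
  set base : G ⧸ H := ((1 : G) : G ⧸ H) with hbase
  have hA : (orbit H ((a : G) : G ⧸ H)).ncard = 100 := by
    rw [orbit_ncard, hSa, hUi]
  have hB : (orbit H ((b : G) : G ⧸ H)).ncard = 315 := by
    rw [orbit_ncard, hSb, hVi]
  have hfix : ∀ h : H, h • base = base := by
    intro h
    have e : h • base = (((h : G) * 1 : G) : G ⧸ H) := rfl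
    rw [e, hbase, QuotientGroup.eq]
    simp
  have hAB : Disjoint (orbit H ((a : G) : G ⧸ H)) (orbit H ((b : G) : G ⧸ H)) := by
    rcases orbit.eq_or_disjoint (G := H) ((a : G) : G ⧸ H) ((b : G) : G ⧸ H) with h | h
    · rw [h, hB] at hA
      norm_num at hA
    · exact h
  have hbA : base ∉ orbit H ((a : G) : G ⧸ H) := by
    intro hm
    have h1 : orbit H ((a : G) : G ⧸ H) = orbit H base := orbit_eq_iff.mpr hm |>.symm
    have h2 : orbit H base = {base} := by
      ext q
      constructor
      · rintro ⟨h, rfl⟩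
        exact hfix h
      · rintro rfl
        exact mem_orbit_self _
    rw [h1, h2, Set.ncard_singleton] at hA
    norm_num at hA
  have hbB : base ∉ orbit H ((b : G) : G ⧸ H) := by
    intro hm
    have h1 : orbit H ((b : G) : G ⧸ H) = orbit H base := orbit_eq_iff.mpr hm |>.symm
    have h2 : orbit H base = {base} := by
      ext q
      constructor
      · rintro ⟨h, rfl⟩
        exact hfix h
      · rintro rfl
        exact mem_orbit_self _
    rw [h1, h2, Set.ncard_singleton] at hB
    norm_num at hB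
  have hcov : ∀ q : G ⧸ H, q = base ∨ q ∈ orbit H ((a : G) : G ⧸ H) ∨ q ∈ orbit H ((b : G) : G ⧸ H) := by
    have h1 : ({base} ∪ (orbit H ((a : G) : G ⧸ H) ∪ orbit H ((b : G) : G ⧸ H))) = (Set.univ : Set (G ⧸ H)) := by
      apply Set.eq_of_subset_of_ncard_le (Set.subset_univ _)
      rw [Set.ncard_univ, hidx, Set.ncard_union_eq, Set.ncard_singleton, Set.ncard_union_eq hAB, hA, hB]
      · rw [Set.disjoint_singleton_left, Set.mem_union]
        rintro (h | h)
        · exact hbA h
        · exact hbB h
    intro q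
    have h2 : q ∈ ({base} ∪ (orbit H ((a : G) : G ⧸ H) ∪ orbit H ((b : G) : G ⧸ H))) := by
      rw [h1]
      trivial
    simpa using h2
  constructor
  · -- the subgroup is maximal
    haveI : Fintype (G ⧸ H) := Fintype.ofFinite _
    let cl : G ⧸ H → Fin 3 := fun q => if q = base then 0 else if q ∈ orbit H ((a : G) : G ⧸ H) then 1 else 2
    have hcl0 : ∀ q, cl q = 0 ↔ q = base := by
      intro q
      by_cases h : q = base
      · simp [cl, h]
      · by_cases h2 : q ∈ orbit H ((a : G) : G ⧸ H) <;> simp [cl, h, h2]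
    have hcl1 : ∀ q, cl q = 1 ↔ q ∈ orbit H ((a : G) : G ⧸ H) := by
      intro q
      by_cases h : q = base
      · subst h
        simp [cl, hbA]
      · by_cases h2 : q ∈ orbit H ((a : G) : G ⧸ H) <;> simp [cl, h, h2]
    have hcl2 : ∀ q, cl q = 2 ↔ q ∈ orbit H ((b : G) : G ⧸ H) := by
      intro q
      by_cases h : q = base
      · subst h
        simp [cl, hbB]
      · by_cases h2 : q ∈ orbit H ((a : G) : G ⧸ H)
        · have h3 : q ∉ orbit H ((b : G) : G ⧸ H) := fun h4 => Set.disjoint_left.mp hAB h2 h4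
          simp [cl, h, h2, h3]
        · have h3 : q ∈ orbit H ((b : G) : G ⧸ H) := by
            rcases hcov q with h4 | h4 | h4
            · exact absurd h4 h
            · exact absurd h4 h2
            · exact h4
          simp [cl, h, h2, h3]
    have hconn : ∀ x y, cl x = cl y → ∃ k ∈ H, k • x = y := by
      intro x y hxy
      have key : ∀ (z : G ⧸ H), x ∈ orbit H z → y ∈ orbit H z → ∃ k ∈ H, k • x = y := by
        intro z hx hy
        obtain ⟨h1, rfl⟩ := hx
        obtain ⟨h2, rfl⟩ := hy
        refine ⟨(h2 * h1⁻¹ : H), (h2 * h1⁻¹ : H).2, ?_⟩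
        show ((h2 * h1⁻¹ : H) : G) • (h1 • z) = h2 • z
        show ((h2 * h1⁻¹ : H) : G) • ((h1 : G) • z) = (h2 : G) • z
        rw [smul_smul]
        congr 1
        push_cast
        group
      generalize hc : cl x = c at hxy
      match c, hc, hxy with
      | 0, hc, hxy =>
        have h1 := (hcl0 x).1 hc
        have h2 := (hcl0 y).1 hxy.symm
        exact ⟨1, H.one_mem, by rw [one_smul, h1, h2]⟩
      | 1, hc, hxy => exact key _ ((hcl1 x).1 hc) ((hcl1 y).1 hxy.symm)
      | 2, hc, hxy => exact key _ ((hcl2 x).1 hc) ((hcl2 y).1 hxy.symm)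
    have hsz : ∀ c : Fin 3, (Finset.univ.filter fun x => cl x = c).card = (![1, 100, 315] : Fin 3 → ℕ) c := by
      intro c
      have hcount : ∀ (S : Set (G ⧸ H)) (c : Fin 3), (∀ q, cl q = c ↔ q ∈ S) →
          (Finset.univ.filter fun x => cl x = c).card = S.ncard := by
        intro S c h
        rw [← Set.ncard_coe_finset]
        congr 1
        ext q
        simp [h]
      match c with
      | 0 =>
        rw [hcount {base} 0 (fun q => by rw [hcl0]; rfl), Set.ncard_singleton]
        rfl
      | 1 =>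
        rw [hcount _ 1 hcl1, hA]
        rfl
      | 2 =>
        rw [hcount _ 2 hcl2, hB]
        rfl
    have hprim : IsPreprimitive G (G ⧸ H) := by
      refine Cfsg.Agent.Lib.Compute.Ru.Core.preprimitive_of_classes' base H (fun k hk => hfix ⟨k, hk⟩) cl hconn _ hsz ?_
      intro J hJ
      rw [hidx]
      have h0 : (0 : Fin 3) ∈ J := by
        rwa [(hcl0 base).2 rfl] at hJ
      have hdec : ∀ J : Finset (Fin 3), 0 ∈ J → (∑ c ∈ J, (![1, 100, 315] : Fin 3 → ℕ) c) ∣ 416 →
          (∑ c ∈ J, (![1, 100, 315] : Fin 3 → ℕ) c) = 1 ∨ (∑ c ∈ J, (![1, 100, 315] : Fin 3 → ℕ) c) = 416 := by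
        decide
      exact hdec J h0
    have hst : stabilizer G base = H := by
      ext g
      rw [mem_stabilizer_iff]
      have e : g • base = ((g * 1 : G) : G ⧸ H) := rfl
      rw [e, hbase, QuotientGroup.eq]
      constructor
      · intro h
        have := H.inv_mem h
        simpa using this
      · intro h
        have := H.inv_mem h
        simpa using this
    haveI : Nontrivial (G ⧸ H) := by
      apply Finite.one_lt_card_iff_nontrivial.mp
      rw [hidx]
      norm_num
    have := (isCoatom_stabilizer_iff_preprimitive (G := G) (X := G ⧸ H) base).mpr hprim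
    rwa [hst] at this
  · intro x hx
    have hxb : ((x : G) : G ⧸ H) ≠ base := by
      intro h
      rw [hbase, QuotientGroup.eq] at h
      apply hx
      have := H.inv_mem h
      simpa using this
    have key : ∀ (c : G) (W : Subgroup H), IsCoatom W → SS H c = W → ((x : G) : G ⧸ H) ∈ orbit H ((c : G) : G ⧸ H) →
        IsCoatom ((H ⊓ H.map (MulAut.conj x).toMonoidHom).subgroupOf H) := by
      intro c W hW hS hm
      obtain ⟨h, hh⟩ := hm
      have e : h • ((c : G) : G ⧸ H) = (((h : G) * c : G) : G ⧸ H) := rfl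
      have hh' : (((h : G) * c : G) : G ⧸ H) = ((x : G) : G ⧸ H) := by
        rw [← e]
        exact hh
      rw [QuotientGroup.eq] at hh'
      have hx' : x = (h : G) * c * ((⟨_, hh'⟩ : H) : G) := by
        show x = (h : G) * c * (((h : G) * c)⁻¹ * x)
        group
      have h2 : SS H x = (SS H c).map (MulAut.conj h).toMonoidHom := by
        conv_lhs => rw [hx']
        exact SS_conj c h _
      show IsCoatom (SS H x)
      rw [h2, hS]
      exact coatom_conj hW h
    rcases hcov _ with h | h | h
    · exact absurd h hxb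
    · exact key a U hU hSa h
    · exact key b V hV hSb h

end Main

end Cfsg.Agent.Lib.Compute.G24J2
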