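import Mathlib
import Cfsg.Agent.S2040
import Cfsg.Agent.Lib.Compute.Ru.Core
import Cfsg.Agent.Lib.Compute.GF4Vec

/-!
# The subgroup of index 100 of `J₂`

The table of the presentation of `J₂` has 100 points: the action on the cosets of the subgroup generated by the first
two generators. The subgroup has orbits of lengths 1, 63 and 36 on the cosets, so it is maximal.
-/

set_option autoImplicit false
set_option maxRecDepth 100000

namespace Cfsg.Agent.Lib.Compute.G24J2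

open Cfsg Cfsg.Agent.Lib.Compute.SchurLin Cfsg.Agent.Lib.Compute.Schur2 Cfsg.Agent.Lib.Compute.PermCert MulAction
open Cfsg.Agent.Lib.Compute.ToddCoxeterCore (wordEl wordEl_nil wordEl_cons wordEl_append)
open Cfsg.Agent.Lib.Sporadic.J2.Group

/-- The table. -/
abbrev cJ : TC := Cfsg.Agent.Lib.Compute.Schur2.J2.c
/-- The generators. -/
noncomputable abbrev gJ : ℕ → J315 := Cfsg.Agent.S2040.gJ

/-- The subgroup. -/
noncomputable abbrev LJ : Subgroup J315 := subL cJ gJ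

theorem LJ_card_le : Nat.card LJ ≤ U33.c.N * 7 := subL_card_le Cfsg.Agent.S2040.hSB.{0} Cfsg.Agent.S2040.hrel

theorem LJ_sub : ∀ k, cJ.nrel ≤ k → wordEl (ltr gJ) (cJ.W.getD k []) ∈ LJ := fun _ hk => subL_mem hk

theorem tabJ : Tab gJ (fun i => ((repOf gJ cJ.par cJ.lt i : J315) : J315 ⧸ LJ)) cJ.n cJ.N cJ.t cJ.par cJ.lt ∧
    Nat.card LJ = U33.c.N * 7 :=
  TC.tab_of_check Cfsg.Agent.S2040.sound.{0} Cfsg.Agent.S2040.hrel LJ_sub Cfsg.Agent.S2040.hgen Cfsg.Agent.S2040.hcard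
    LJ_card_le

/-- The cosets. -/
noncomputable def om (i : ℕ) : J315 ⧸ LJ := ((repOf gJ cJ.par cJ.lt i : J315) : J315 ⧸ LJ)

theorem om_zero : om 0 = ((1 : J315) : J315 ⧸ LJ) := by
  unfold om
  rw [repOf_zero]

theorem card_quot : Nat.card (J315 ⧸ LJ) = 100 := by
  have h1 := LJ.card_eq_card_quotient_mul_card_subgroup
  rw [Cfsg.Agent.S2040.hcard, tabJ.2] at h1
  have h2 : 0 < U33.c.N * 7 := by decide +kernel
  exact (Nat.eq_of_mul_eq_mul_right h2 h1).symm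

theorem index_LJ : LJ.index = 100 := card_quot

theorem om_surj (q : J315 ⧸ LJ) : ∃ i, i < 100 ∧ om i = q := by
  obtain ⟨a, rfl⟩ := QuotientGroup.mk_surjective q
  obtain ⟨i, hi, hia⟩ := TC.cover_of_check Cfsg.Agent.S2040.sound.{0} Cfsg.Agent.S2040.hrel LJ_sub
    Cfsg.Agent.S2040.hgen a
  exact ⟨i, hi, QuotientGroup.eq.mpr hia⟩

/-- The labelling of the cosets. -/
noncomputable def omE : Fin 100 ≃ J315 ⧸ LJ :=
  Equiv.ofBijective (fun i => om i)
    (Function.Surjective.bijective_of_nat_card_le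
      (fun q => by
        obtain ⟨i, hi, h⟩ := om_surj q
        exact ⟨⟨i, hi⟩, h⟩)
      (by rw [card_quot, Nat.card_fin]))

theorem omE_apply (i : Fin 100) : omE i = om i := rfl

theorem om_walk (w : List ℕ) (hw : ∀ x ∈ w, x < 6) {i : ℕ} (hi : i < 100) :
    wordEl (ltr gJ) w • om i = om (walkEnd cJ.t i w) ∧ walkEnd cJ.t i w < 100 := by
  induction w generalizing i with
  | nil => exact ⟨one_smul _ _, hi⟩
  | cons x u ih =>
    have hx : x < 6 := hw x (by simp)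
    have h1 := tabJ.1.hact i hi x hx
    have h2 := tabJ.1.hlt i hi x hx
    obtain ⟨h3, h4⟩ := ih (fun y hy => hw y (by simp [hy])) h2
    refine ⟨?_, h4⟩
    rw [wordEl_cons, mul_smul]
    have h5 : ltr gJ x • om i = om (cJ.t i x) := h1
    rw [h5, h3]
    rfl

/-- The classes of the points. -/
def clT : ℕ := nat_lit 0x966a55559656a95a55959666966a96655a56a9659659555554

/-- The class of a point. -/
def clF (i : ℕ) : ℕ := get 2 3 clT i

/-- The base points of the classes. -/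
def rootOf (c : ℕ) : ℕ := [0, 1, 13].getD c 0

/-- The words from the base points. -/
def wordsL : List (List ℕ) := [[],
  [],
  [0],
  [2],
  [3],
  [0, 2],
  [0, 3],
  [3, 0],
  [2, 0],
  [2, 2],
  [3, 0, 2],
  [3, 3],
  [0, 2, 0],
  [],
  [3, 0, 3],
  [2, 0, 2],
  [0, 3, 0, 3],
  [2, 2, 0],
  [2, 2, 2],
  [0, 3, 0],
  [3, 0, 2, 2],
  [3, 3, 0],
  [0, 2, 0],
  [0, 2, 0, 2],
  [0, 2, 0, 3],
  [2, 2],
  [0],
  [2],
  [3],
  [3, 0, 3, 0],
  [3, 0, 3, 3],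
  [2, 0, 2, 0],
  [0, 3, 0, 3, 0],
  [0, 3, 0, 2],
  [2, 2, 0, 2],
  [2, 2, 0, 3],
  [3, 0, 3, 0, 3],
  [2, 2, 2, 0],
  [0, 3],
  [3, 0, 2, 2, 2],
  [0, 2, 2, 0, 2, 0],
  [3, 3, 0, 2],
  [3, 3, 0, 3],
  [2, 2, 0, 3, 0, 2],
  [0, 2],
  [0, 2, 0, 2],
  [0, 2, 0, 3],
  [0, 2, 0, 2, 2],
  [2, 2, 0, 2],
  [0, 2, 0, 3, 0],
  [0, 2, 0, 3, 3],
  [2, 2, 0],
  [2, 2, 2],
  [3, 0, 3, 0, 2],
  [3, 3],
  [3, 0, 3, 3, 0],
  [2, 2, 2, 0],
  [2, 0, 2, 0, 2],
  [2, 0, 2, 0, 3],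
  [0, 3, 0, 3, 0, 3],
  [2, 2, 0, 2, 2],
  [2, 2, 0, 3, 0],
  [2, 2, 0, 3, 3],
  [0, 2, 0, 2, 2],
  [3, 0, 2, 2, 2, 0],
  [2, 2, 2, 0, 2],
  [2, 2, 2, 0, 3],
  [2, 0, 2, 0, 3, 3, 0],
  [0, 3, 3],
  [0, 2, 2, 0, 2],
  [3, 3, 0, 2, 0],
  [3, 3, 0, 3, 0],
  [3, 3, 0, 3, 3],
  [2, 2, 0, 3, 0, 3],
  [2, 2, 0, 3, 0],
  [0, 2, 2],
  [0, 2, 0, 3, 3],
  [2, 0, 2, 0, 3, 3],
  [0, 2, 0, 2, 2, 0],
  [0, 2, 0, 2, 2, 2],
  [2, 2, 0, 2, 2],
  [0, 2, 0, 3, 0, 2],
  [2, 2, 0, 2, 2, 2],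
  [2, 2, 0, 3],
  [3, 0, 3, 0, 2, 2],
  [3, 0, 3, 3, 0, 2],
  [2, 0, 2, 0, 2, 2],
  [2, 2, 0, 2, 2, 0],
  [2, 2, 0, 3, 0, 2],
  [2, 2, 0, 3, 3, 0],
  [2, 2, 2, 0, 3, 0],
  [0, 2, 0, 2, 2, 0, 2, 2],
  [0, 2, 2, 2],
  [0, 2, 2, 0, 3],
  [0, 2, 2, 0],
  [3, 3, 0, 3, 0, 2],
  [2, 2, 0, 3, 3],
  [2, 0, 2, 0, 2, 2, 2],
  [0, 2, 0, 2, 2, 0, 2],
  [2, 2, 0, 2, 2, 2]]

theorem hund_chk : allB (fun i => Nat.blt (clF i) 3 && (wordsL.getD i []).all (fun x => Nat.blt x 4) &&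
    Nat.blt (rootOf (clF i)) 100 &&
    Nat.beq (walkEnd cJ.t (rootOf (clF i)) (wordsL.getD i [])) i) 100 = true := by decide +kernel

theorem clF_lt {i : ℕ} (hi : i < 100) : clF i < 3 := by
  have h := (allB_iff _ _).mp hund_chk i hi
  simp only [Bool.and_eq_true, Nat.blt_eq] at h
  exact h.1.1.1

theorem words_lt {i : ℕ} (hi : i < 100) : ∀ x ∈ wordsL.getD i [], x < 4 := by
  have h := (allB_iff _ _).mp hund_chk i hi
  simp only [Bool.and_eq_true, Nat.blt_eq, List.all_eq_true] at h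
  exact h.1.1.2

theorem root_lt {i : ℕ} (hi : i < 100) : rootOf (clF i) < 100 := by
  have h := (allB_iff _ _).mp hund_chk i hi
  simp only [Bool.and_eq_true, Nat.blt_eq] at h
  exact h.1.2

theorem walk_eq {i : ℕ} (hi : i < 100) : walkEnd cJ.t (rootOf (clF i)) (wordsL.getD i []) = i := by
  have h := (allB_iff _ _).mp hund_chk i hi
  simp only [Bool.and_eq_true, Nat.beq_eq] at h
  exact h.2

theorem gJ0_mem : gJ 0 ∈ LJ := by
  have h := LJ_sub 21 (by decide)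
  have e : cJ.W.getD 21 [] = [0] := by decide +kernel
  rw [e, wordEl_cons, wordEl_nil, one_mul] at h
  have h2 : ltr gJ 0 = gJ 0 := by simp [ltr]
  rwa [h2] at h

theorem gJ1_mem : gJ 1 ∈ LJ := by
  have h := LJ_sub 22 (by decide)
  have e : cJ.W.getD 22 [] = [2] := by decide +kernel
  rw [e, wordEl_cons, wordEl_nil, one_mul] at h
  have h2 : ltr gJ 2 = gJ 1 := by simp [ltr]
  rwa [h2] at h

theorem ltr_mem {x : ℕ} (hx : x < 4) : ltr gJ x ∈ LJ := by
  unfold ltr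
  have h : x / 2 = 0 ∨ x / 2 = 1 := by omega
  rcases h with h | h
  · rw [h]
    split_ifs
    · exact gJ0_mem
    · exact LJ.inv_mem gJ0_mem
  · rw [h]
    split_ifs
    · exact gJ1_mem
    · exact LJ.inv_mem gJ1_mem

theorem word_mem (w : List ℕ) (hw : ∀ x ∈ w, x < 4) : wordEl (ltr gJ) w ∈ LJ := by
  induction w with
  | nil => exact LJ.one_mem
  | cons x u ih =>
    rw [wordEl_cons]
    exact LJ.mul_mem (ih fun y hy => hw y (by simp [hy])) (ltr_mem (hw x (by simp)))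

/-- The elements from the base points. -/
noncomputable def wE (i : ℕ) : J315 := wordEl (ltr gJ) (wordsL.getD i [])

theorem wE_mem {i : ℕ} (hi : i < 100) : wE i ∈ LJ := word_mem _ (words_lt hi)

theorem wE_smul {i : ℕ} (hi : i < 100) : wE i • om (rootOf (clF i)) = om i := by
  have h := (om_walk (wordsL.getD i []) (fun x hx => by have := words_lt hi x hx; omega) (root_lt hi)).1
  rwa [walk_eq hi] at h

/-- The classes of the cosets. -/
noncomputable def clV (q : J315 ⧸ LJ) : Fin 3 := ⟨clF (omE.symm q), clF_lt (omE.symm q).2⟩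

theorem clV_om (i : Fin 100) : clV (om i) = ⟨clF i, clF_lt i.2⟩ := by
  apply Fin.ext
  show clF (omE.symm (omE i)) = clF i
  rw [Equiv.symm_apply_apply]

theorem count_cl : ∀ c : Fin 3, (Finset.univ.filter fun i : Fin 100 => (⟨clF i, clF_lt i.2⟩ : Fin 3) = c).card =
    (![1, 63, 36] : Fin 3 → ℕ) c := by decide +kernel

noncomputable instance : Fintype (J315 ⧸ LJ) := Fintype.ofFinite _

theorem stab_base : stabilizer J315 (((1 : J315) : J315 ⧸ LJ)) = LJ := by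
  ext g
  rw [mem_stabilizer_iff]
  have e : g • ((1 : J315) : J315 ⧸ LJ) = ((g * 1 : J315) : J315 ⧸ LJ) := rfl
  rw [e, QuotientGroup.eq]
  constructor
  · intro h
    have := LJ.inv_mem h
    simpa using this
  · intro h
    have := LJ.inv_mem h
    simpa using this

theorem prim_LJ : IsPreprimitive J315 (J315 ⧸ LJ) := by
  classical
  refine Cfsg.Agent.Lib.Compute.Ru.Core.preprimitive_of_classes' (((1 : J315) : J315 ⧸ LJ)) LJ
    (fun k hk => by
      have := stab_base ▸ hk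
      exact this) clV ?_ (![1, 63, 36] : Fin 3 → ℕ) ?_ ?_
  · intro x y hxy
    obtain ⟨i, rfl⟩ := omE.surjective x
    obtain ⟨j, rfl⟩ := omE.surjective y
    rw [omE_apply, omE_apply, clV_om, clV_om] at hxy
    have hc : clF i = clF j := congrArg Fin.val hxy
    refine ⟨wE j * (wE i)⁻¹, LJ.mul_mem (wE_mem j.2) (LJ.inv_mem (wE_mem i.2)), ?_⟩
    rw [omE_apply, omE_apply, ← wE_smul i.2, ← wE_smul j.2, mul_smul, ← hc, inv_smul_smul]
  · intro c
    rw [← count_cl c]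
    apply Finset.card_bij (fun q _ => omE.symm q)
    · intro q hq
      simp only [Finset.mem_filter, Finset.mem_univ, true_and] at hq ⊢
      exact hq
    · intro a _ b _ h
      exact omE.symm.injective h
    · intro i hi
      refine ⟨omE i, ?_, omE.symm_apply_apply i⟩
      simp only [Finset.mem_filter, Finset.mem_univ, true_and] at hi ⊢
      rw [omE_apply, clV_om]
      exact hi
  · intro J hJ
    rw [card_quot]
    have h0 : (0 : Fin 3) ∈ J := by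
      have h1 : clV (((1 : J315) : J315 ⧸ LJ)) = 0 := by
        rw [← om_zero]
        exact clV_om ⟨0, by norm_num⟩ |>.trans (by decide +kernel)
      rwa [h1] at hJ
    have hdec : ∀ J : Finset (Fin 3), 0 ∈ J → (∑ c ∈ J, (![1, 63, 36] : Fin 3 → ℕ) c) ∣ 100 →
        (∑ c ∈ J, (![1, 63, 36] : Fin 3 → ℕ) c) = 1 ∨ (∑ c ∈ J, (![1, 63, 36] : Fin 3 → ℕ) c) = 100 := by
      decide
    exact hdec J h0

theorem coatom_LJ : IsCoatom LJ := by
  haveI : Nontrivial (J315 ⧸ LJ) := by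
    apply Finite.one_lt_card_iff_nontrivial.mp
    rw [card_quot]
    norm_num
  have := (isCoatom_stabilizer_iff_preprimitive (G := J315) (X := J315 ⧸ LJ) ((1 : J315) : J315 ⧸ LJ)).mpr prim_LJ
  rwa [stab_base] at this

end Cfsg.Agent.Lib.Compute.G24J2
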