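import Mathlib
import Cfsg.Agent.Lib.Compute.G24
import Cfsg.Agent.Lib.Compute.G24J2.Data
import Cfsg.Agent.Lib.Compute.PermCert

/-!
# The letters of `J₂` inside `G₂(4)`
-/

set_option autoImplicit false
set_option maxRecDepth 100000

namespace Cfsg.Agent.Lib.Compute.G24J2

open Cfsg Cfsg.Agent.Lib.Compute.PermCert
open Cfsg.Agent.Lib.Compute.ToddCoxeterCore (wordEl wordEl_nil wordEl_cons wordEl_append)
open Cfsg.Agent.Lib.Compute.GF4Vec Cfsg.Agent.Lib.Compute.GFModel
open Cfsg.Agent.Lib.Compute.G24 (L0 rho ee rho_ee X6 rho_inj)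
open Matrix

/-- The numbering. -/
abbrev e6 : Fin 6 ≃ Fin 6 := Equiv.refl _

/-- The table of a root element. -/
def TR (j idx : ℕ) : ℕ := get 12 4095 trT (Nat.add (Nat.mul j 24) idx)

/-- The table of a letter. -/
def TM (j idx : ℕ) : ℕ := get 12 4095 tmT (Nat.add (Nat.mul j 24) idx)

theorem TR_ok : ∀ j, j < 48 → TOK 6 (TR j) := by
  unfold TOK
  decide +kernel

theorem TM_ok : ∀ j, j < 8 → TOK 6 (TM j) := by
  unfold TOK
  decide +kernel

theorem root_eq : ∀ r : Fin 12, ∀ c : Fin 4, X6 r (gf4.dec c) = matT e6 (TR (4 * r + c)) := by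
  decide +kernel

/-- The root elements. -/
noncomputable def Lt (j : ℕ) : L0 :=
  if h : j < 48 then ee ⟨j / 4, by omega⟩ (j % 4) else 1

theorem rho_Lt {j : ℕ} (hj : j < 48) : ((rho (Lt j) : GL (Fin 6) GF4) : Matrix (Fin 6) (Fin 6) GF4) = matT e6 (TR j) := by
  unfold Lt
  rw [dif_pos hj, Cfsg.Agent.Lib.Compute.G24.rho_ee]
  have h := root_eq ⟨j / 4, by omega⟩ ⟨j % 4, by omega⟩
  have h3 : 4 * (j / 4) + j % 4 = j := Nat.div_add_mod _ _
  simp only [h3] at h
  exact h

/-- The letters. -/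
noncomputable def Y (j : ℕ) : L0 := wordEl Lt (ws.getD j [])

theorem map_wordEl {A B : Type*} [Group A] [Group B] (f : A →* B) (el : ℕ → A) (w : List ℕ) :
    f (wordEl el w) = wordEl (fun j => f (el j)) w := by
  induction w with
  | nil => exact map_one f
  | cons x u ih => rw [wordEl_cons, wordEl_cons, map_mul, ih]

theorem ws_lt : ∀ j, j < 8 → ∀ x ∈ ws.getD j [], x < 48 := by decide +kernel

theorem ws_eq : ∀ j, j < 8 → ∀ k, k < 6 → wv TR 6 (ws.getD j []) (2 ^ (2 * k)) = TM j (4 * k + 1) := by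
  decide +kernel

theorem rho_Y {j : ℕ} (hj : j < 8) : ((rho (Y j) : GL (Fin 6) GF4) : Matrix (Fin 6) (Fin 6) GF4) = matT e6 (TM j) := by
  unfold Y
  rw [map_wordEl]
  exact word_eq e6 (m := 48) (el := fun j => rho (Lt j)) TR_ok (fun j hj => rho_Lt hj) _ (ws_lt j hj) _ (ws_eq j hj)

/-- The check of an equation between words in the letters. -/
def eqB (u v : List ℕ) : Bool :=
  u.all (fun x => Nat.blt x 8) && v.all (fun x => Nat.blt x 8) &&
    allB (fun k => Nat.beq (wv TM 6 u (2 ^ (2 * k))) (wv TM 6 v (2 ^ (2 * k)))) 6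

theorem eq_of_eqB {u v : List ℕ} (h : eqB u v = true) : wordEl Y u = wordEl Y v := by
  simp only [eqB, Bool.and_eq_true, List.all_eq_true, Nat.blt_eq] at h
  obtain ⟨⟨hu, hv⟩, h3⟩ := h
  apply rho_inj
  apply Units.ext
  rw [map_wordEl, map_wordEl]
  apply mat_ext e6
  intro k
  rw [word_mulVec e6 (m := 8) (T := TM) TM_ok (fun j hj => rho_Y hj) u hu,
    word_mulVec e6 (m := 8) (T := TM) TM_ok (fun j hj => rho_Y hj) v hv]
  have h4 := (allB_iff _ _).mp h3 k k.2
  rw [Nat.beq_eq] at h4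
  rw [h4]

theorem rel_inv0 : Y 0 * Y 1 = 1 := by
  have := eq_of_eqB (u := [1, 0]) (v := []) (by decide +kernel)
  simpa using this

theorem rel_inv1 : Y 2 * Y 3 = 1 := by
  have := eq_of_eqB (u := [3, 2]) (v := []) (by decide +kernel)
  simpa using this

theorem rel_inv2 : Y 4 * Y 5 = 1 := by
  have := eq_of_eqB (u := [5, 4]) (v := []) (by decide +kernel)
  simpa using this

theorem a_sq : Y 6 * Y 6 = 1 := by
  have := eq_of_eqB (u := [6, 6]) (v := []) (by decide +kernel)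
  simpa using this

theorem b_sq : Y 7 * Y 7 = 1 := by
  have := eq_of_eqB (u := [7, 7]) (v := []) (by decide +kernel)
  simpa using this

end Cfsg.Agent.Lib.Compute.G24J2
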