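import Mathlib
import Cfsg.Agent.Lib.Compute.G24J2.Letters
import Cfsg.Agent.Lib.Compute.G24J2.ExtPrim
import Cfsg.Agent.Lib.Compute.G24J2.Hundred
import Cfsg.Agent.Lib.Compute.Schur2.PresIso
import Cfsg.Agent.S1059

/-!
# The isomorphism of `J₂` with a subgroup of `G₂(4)`
-/

set_option autoImplicit false
set_option maxRecDepth 100000

namespace Cfsg.Agent.Lib.Compute.G24J2

open Cfsg Cfsg.Agent.Lib.Compute.SchurLin Cfsg.Agent.Lib.Compute.Schur2 Cfsg.Agent.Lib.Compute.PermCert MulAction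
open Cfsg.Agent.Lib.Compute.ToddCoxeterCore (wordEl wordEl_nil wordEl_cons wordEl_append)
open Cfsg.Agent.Lib.Sporadic.J2.Group Cfsg.Agent.Lib.Compute.GF4Vec Cfsg.Agent.Lib.Compute.GFModel
open Cfsg.Agent.Lib.Compute.G24 (L0 rho ee rho_ee X6 rho_inj)
open Matrix

/-- The generators. -/
noncomputable def g0 (j : ℕ) : L0 := if j < 3 then Y (2 * j) else 1

theorem g0_lt {j : ℕ} (h : j < 3) : g0 j = Y (2 * j) := if_pos h

theorem ltr_g0 {x : ℕ} (hx : x < 6) : ltr g0 x = Y x := by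
  have h1 : Y 1 = (Y 0)⁻¹ := mul_eq_one_iff_eq_inv'.mp rel_inv0
  have h3 : Y 3 = (Y 2)⁻¹ := mul_eq_one_iff_eq_inv'.mp rel_inv1
  have h5 : Y 5 = (Y 4)⁻¹ := mul_eq_one_iff_eq_inv'.mp rel_inv2
  have e0 : g0 0 = Y 0 := g0_lt (j := 0) (by norm_num)
  have e1 : g0 1 = Y 2 := g0_lt (j := 1) (by norm_num)
  have e2 : g0 2 = Y 4 := g0_lt (j := 2) (by norm_num)
  rw [ltr]
  by_cases hp : x % 2 = 0
  · rw [if_pos hp]
    have h6 : x = 0 ∨ x = 2 ∨ x = 4 := by omega
    rcases h6 with rfl | rfl | rfl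
    · exact e0
    · exact e1
    · exact e2
  · rw [if_neg hp]
    have h6 : x = 1 ∨ x = 3 ∨ x = 5 := by omega
    rcases h6 with rfl | rfl | rfl
    · rw [h1]
      exact congrArg _ e0
    · rw [h3]
      exact congrArg _ e1
    · rw [h5]
      exact congrArg _ e2

theorem wordEl_g0 {w : List ℕ} (hw : ∀ x ∈ w, x < 6) : wordEl (ltr g0) w = wordEl Y w := by
  induction w with
  | nil => rfl
  | cons x u ih =>
    rw [wordEl_cons, wordEl_cons, ih (fun y hy => hw y (by simp [hy])), ltr_g0 (hw x (by simp))]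

/-- The group. -/
noncomputable abbrev HH : Subgroup L0 := Subgroup.closure (g0 '' Set.Iio 3)

theorem g0_mem (j : ℕ) : g0 j ∈ HH := by
  by_cases hj : j < 3
  · exact Subgroup.subset_closure ⟨j, hj, rfl⟩
  · have : g0 j = 1 := by simp [g0, hj]
    rw [this]
    exact HH.one_mem

/-- The generators in the group. -/
noncomputable def gH (j : ℕ) : HH := ⟨g0 j, g0_mem j⟩

theorem coe_wordEl_gH (w : List ℕ) : ((wordEl (ltr gH) w : HH) : L0) = wordEl (ltr g0) w := by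
  exact map_wordEl_ltr HH.subtype gH w

theorem Y_mem {x : ℕ} (hx : x < 6) : Y x ∈ HH := by
  rw [← ltr_g0 hx]
  unfold ltr
  split_ifs
  · exact g0_mem _
  · exact HH.inv_mem (g0_mem _)

theorem word_mem_HH {w : List ℕ} (hw : ∀ x ∈ w, x < 6) : wordEl Y w ∈ HH := by
  rw [← wordEl_g0 hw, ← coe_wordEl_gH]
  exact SetLike.coe_mem _

/-- The relators hold in the group. -/
theorem rels_chk : allB (fun k => eqB (cJ.W.getD k []) []) 21 = true := by decide +kernel

theorem W_lt : allB (fun k => (cJ.W.getD k []).all fun x => Nat.blt x 6) 21 = true := by decide +kernel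

theorem hrelH : ∀ k < cJ.nrel, wordEl (ltr gH) (cJ.W.getD k []) = 1 := by
  intro k hk
  apply Subtype.ext
  have hk' : k < 21 := hk
  have h1 := (allB_iff _ _).mp W_lt k hk'
  simp only [List.all_eq_true, Nat.blt_eq] at h1
  rw [coe_wordEl_gH, wordEl_g0 h1, eq_of_eqB ((allB_iff _ _).mp rels_chk k hk')]
  rfl

theorem hgenH (x : HH) : x ∈ Subgroup.closure (gH '' Set.Iio cJ.n) := by
  have h1 : Subgroup.closure (((↑) : HH → L0) ⁻¹' (g0 '' Set.Iio 3)) = ⊤ := Subgroup.closure_closure_coe_preimage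
  have h2 : x ∈ Subgroup.closure (((↑) : HH → L0) ⁻¹' (g0 '' Set.Iio 3)) := by
    rw [h1]
    trivial
  refine Subgroup.closure_mono ?_ h2
  rintro y ⟨j, hj, hy⟩
  refine ⟨j, hj, ?_⟩
  exact Subtype.ext hy

theorem Y0_ne : Y 0 ≠ 1 := by
  intro h
  have h1 := rho_Y (j := 0) (by norm_num)
  rw [h, map_one] at h1
  have h2 : matT e6 (TM 0) ≠ 1 := by decide +kernel
  exact h2 h1.symm

instance : Nontrivial HH := by
  refine ⟨⟨gH 0, 1, ?_⟩⟩
  intro h
  have h1 : g0 0 = 1 := congrArg Subtype.val h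
  have h2 : g0 0 = Y 0 := by simp [g0]
  exact Y0_ne (h2 ▸ h1)

theorem exists_kappa : ∃ κ : HH ≃* J315, ∀ j, j < cJ.n → κ (gH j) = gJ j := by
  have h1 : TC.Sound.{0} cJ := Cfsg.Agent.S2040.sound
  have h2 : SubBound.{0} cJ (U33.c.N * 7) := Cfsg.Agent.S2040.hSB
  have h3 : ∀ k < cJ.nrel, wordEl (ltr gJ) (cJ.W.getD k []) = 1 := Cfsg.Agent.S2040.hrel
  have h4 : ∀ x : J315, x ∈ Subgroup.closure (gJ '' Set.Iio cJ.n) := Cfsg.Agent.S2040.hgen
  have h5 : Nat.card J315 = cJ.N * (U33.c.N * 7) := Cfsg.Agent.S2040.hcard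
  have h6 : IsSimpleGroup J315 ∧ Nontrivial HH := ⟨simple_J315, inferInstance⟩
  exact @exists_equiv_of_relators cJ (U33.c.N * 7) h1 h2 (↥J315) (↥HH) _ _ _ _ gJ gH h3 hrelH h4 hgenH h5 (Or.inr h6)

/-- The isomorphism with the group of the lines. -/
noncomputable def κ : HH ≃* J315 := exists_kappa.choose

theorem κ_gH {j : ℕ} (hj : j < 3) : κ (gH j) = gJ j := exists_kappa.choose_spec j hj


theorem gJ_ge {j : ℕ} (hj : 3 ≤ j) : gJ j = 1 :=
  gP_ge Cfsg.Agent.S2040.hmem hj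

theorem gH_ge {j : ℕ} (hj : 3 ≤ j) : gH j = 1 := by
  apply Subtype.ext
  show g0 j = 1
  simp [g0, show ¬ j < 3 by omega]

theorem κ_gH' (j : ℕ) : κ (gH j) = gJ j := by
  by_cases hj : j < 3
  · exact κ_gH hj
  · rw [gH_ge (by omega), gJ_ge (by omega), map_one]

theorem κ_word (w : List ℕ) : κ (wordEl (ltr gH) w) = wordEl (ltr gJ) w := by
  have h := map_wordEl_ltr κ.toMonoidHom gH w
  have h2 : (fun j => κ.toMonoidHom (gH j)) = gJ := funext κ_gH'
  simp only [MulEquiv.toMonoidHom_eq_coe, MonoidHom.coe_coe] at h h2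
  rw [h, h2]

end Cfsg.Agent.Lib.Compute.G24J2
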