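import Mathlib
import Cfsg.Agent.Lib.Compute.G24J2.Kappa

/-!
# `J₂` inside `G₂(4)`
-/

set_option autoImplicit false
set_option maxRecDepth 100000

namespace Cfsg.Agent.Lib.Compute.G24J2

open Cfsg Cfsg.Agent.Lib.Compute.SchurLin Cfsg.Agent.Lib.Compute.Schur2 Cfsg.Agent.Lib.Compute.PermCert MulAction
open Cfsg.Agent.Lib.Compute.ToddCoxeterCore (wordEl wordEl_nil wordEl_cons wordEl_append)
open Cfsg.Agent.Lib.Sporadic.J2.Group Cfsg.Agent.Lib.Compute.GF4Vec Cfsg.Agent.Lib.Compute.GFModel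
open Cfsg.Agent.Lib.Compute.G24 (L0 rho ee rho_ee X6 rho_inj)
open Matrix

/-! ### The two further elements -/

/-- The first element. -/
noncomputable abbrev aa : L0 := Y 6

/-- The second element. -/
noncomputable abbrev bb : L0 := Y 7

theorem inv_of_sq {G : Type*} [Group G] {a : G} (h : a * a = 1) : a⁻¹ = a :=
  (mul_eq_one_iff_eq_inv'.mp h).symm

theorem aa_inv : aa⁻¹ = aa := inv_of_sq (G := L0) a_sq

theorem bb_inv : bb⁻¹ = bb := inv_of_sq (G := L0) b_sq

theorem coatom_comap {A B : Type*} [Group A] [Group B] (f : A ≃* B) {W : Subgroup B} (h : IsCoatom W) :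
    IsCoatom (W.comap f.toMonoidHom) := (f.comapSubgroup.isCoatom_iff W).mpr h

theorem index_comap_equiv {A B : Type*} [Group A] [Group B] (f : A ≃* B) (W : Subgroup B) :
    (W.comap f.toMonoidHom).index = W.index := Subgroup.index_comap_of_surjective _ f.surjective

/-- The subgroup of index 100. -/
noncomputable abbrev UU : Subgroup HH := LJ.comap κ.toMonoidHom

/-- The subgroup of index 315. -/
noncomputable abbrev VV : Subgroup HH := (stabilizer J315 (0 : Fin 315)).comap κ.toMonoidHom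

theorem coatom_UU : IsCoatom UU := by
  have h := @coatom_comap (↥HH) (↥J315) HH.toGroup J315.toGroup κ LJ coatom_LJ
  exact h

theorem index_UU : UU.index = 100 := by
  have h := @index_comap_equiv (↥HH) (↥J315) HH.toGroup J315.toGroup κ LJ
  exact h.trans index_LJ

theorem coatom_stab : IsCoatom (stabilizer J315 (0 : Fin 315)) :=
  (isCoatom_stabilizer_iff_preprimitive (G := J315) (X := Fin 315) 0).mpr preprim_J

theorem coatom_VV : IsCoatom VV := by
  have h := @coatom_comap (↥HH) (↥J315) HH.toGroup J315.toGroup κ _ coatom_stab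
  exact h

theorem index_VV : VV.index = 315 := by
  have h := @index_comap_equiv (↥HH) (↥J315) HH.toGroup J315.toGroup κ (stabilizer J315 (0 : Fin 315))
  refine h.trans ?_
  rw [index_stabilizer, orbit_eq_univ, Set.ncard_univ]
  simp

theorem card_HH : Nat.card HH = 604800 := by
  rw [Nat.card_congr κ.toEquiv, card_J315]

theorem card_L0 : Nat.card L0 = 416 * Nat.card HH := by
  rw [card_HH]
  have h := Cfsg.Agent.S1059.result (F := GF4) (q := 4) card_GF4
  rw [h]
  norm_num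

theorem mem_of_letters {w : List ℕ} (hw : ∀ x ∈ w, x < 6) : wordEl Y w ∈ HH := word_mem_HH hw

/-! ### Conjugates -/

theorem a_conj0 : aa * Y 0 * aa = wordEl Y (aws.getD 0 []) := by
  have h := eq_of_eqB (u := [6, 0, 6]) (v := aws.getD 0 []) (by decide +kernel)
  rw [← h, wordEl_cons, wordEl_cons, wordEl_cons, wordEl_nil, one_mul]

theorem a_conj1 : aa * Y 2 * aa = wordEl Y (aws.getD 1 []) := by
  have h := eq_of_eqB (u := [6, 2, 6]) (v := aws.getD 1 []) (by decide +kernel)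
  rw [← h, wordEl_cons, wordEl_cons, wordEl_cons, wordEl_nil, one_mul]

theorem aws_lt : ∀ j, j < 2 → ∀ x ∈ aws.getD j [], x < 6 := by decide +kernel

theorem gH0_SS : gH 0 ∈ SS HH aa := by
  rw [mem_SS, aa_inv]
  show aa * g0 0 * aa ∈ HH
  have e0 : g0 0 = Y 0 := g0_lt (j := 0) (by norm_num)
  rw [e0, a_conj0]
  exact word_mem_HH (aws_lt 0 (by norm_num))

theorem gH1_SS : gH 1 ∈ SS HH aa := by
  rw [mem_SS, aa_inv]
  show aa * g0 1 * aa ∈ HH
  have e0 : g0 1 = Y 2 := g0_lt (j := 1) (by norm_num)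
  rw [e0, a_conj1]
  exact word_mem_HH (aws_lt 1 (by norm_num))

theorem W21 : cJ.W.getD 21 [] = [0] := by decide +kernel
theorem W22 : cJ.W.getD 22 [] = [2] := by decide +kernel
theorem W23 : ∀ k, 23 ≤ k → cJ.W.getD k [] = [] := by
  intro k hk
  apply List.getD_eq_default
  have : cJ.W.length = 23 := by decide +kernel
  omega

theorem ltr_even (f : ℕ → J315) (j : ℕ) : ltr f (2 * j) = f j := by
  have h4 : (2 * j) % 2 = 0 := by omega
  have h5 : (2 * j) / 2 = j := by omega
  simp [ltr, h4, h5]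

theorem UU_le : UU ≤ SS HH aa := by
  intro u hu
  have hu' : κ u ∈ LJ := hu
  have hle : LJ ≤ (SS HH aa).map κ.toMonoidHom := by
    apply (Subgroup.closure_le _).2
    rintro y ⟨k, hk, rfl⟩
    have hk' : 21 ≤ k := hk
    rcases Nat.lt_or_ge k 23 with h | h
    · have h2 : k = 21 ∨ k = 22 := by omega
      rcases h2 with rfl | rfl
      · rw [W21, wordEl_cons, wordEl_nil, one_mul]
        exact ⟨gH 0, gH0_SS, (κ_gH' 0).trans (ltr_even gJ 0).symm⟩
      · rw [W22, wordEl_cons, wordEl_nil, one_mul]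
        exact ⟨gH 1, gH1_SS, (κ_gH' 1).trans (ltr_even gJ 1).symm⟩
    · rw [W23 k h]
      exact Subgroup.one_mem _
  obtain ⟨s, hs, e⟩ := hle hu'
  have : s = u := κ.injective e
  rwa [← this]

theorem lvw_lt : ∀ j, j < 3 → ∀ x ∈ lvw.getD j [], x < 6 := by decide +kernel

theorem bws_lt : ∀ j, j < 3 → ∀ x ∈ bws.getD j [], x < 6 := by decide +kernel

theorem b_conj_chk : allB (fun j => eqB (7 :: (lvw.getD j [] ++ [7])) (bws.getD j [])) 3 = true := by decide +kernel

theorem b_conj {j : ℕ} (hj : j < 3) : bb * wordEl Y (lvw.getD j []) * bb = wordEl Y (bws.getD j []) := by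
  have h := eq_of_eqB ((allB_iff _ _).mp b_conj_chk j hj)
  rw [← h, wordEl_cons, wordEl_append, wordEl_cons, wordEl_nil, one_mul]

/-- The words of the generators of the stabilizer. -/
theorem lv1_chk : allB (fun j => allB (fun i =>
    Nat.beq (get 9 511 ((Cfsg.Agent.Lib.Sporadic.J2.Data3.lv1.gens.getD j ⟨0, 0⟩).f) i)
      (wordPt 9 511 Cfsg.Agent.Lib.Compute.Schur2.J2.es (lvw.getD j []) i)) 315) 3 = true := by decide +kernel

theorem lv1_len : Cfsg.Agent.Lib.Sporadic.J2.Data3.lv1.gens.length = 3 := by decide +kernel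

theorem lv1_valid : Cfsg.Agent.Lib.Sporadic.J2.Data3.lv1.gens.all (validB 9 511 315) = true := by decide +kernel

theorem lv1_perm {j : ℕ} (hj : j < 3) :
    permOf 9 511 315 (Cfsg.Agent.Lib.Sporadic.J2.Data3.lv1.gens.getD j ⟨0, 0⟩) =
      ((wordEl (ltr gJ) (lvw.getD j []) : J315) : Equiv.Perm (Fin 315)) := by
  have hv : validB 9 511 315 (Cfsg.Agent.Lib.Sporadic.J2.Data3.lv1.gens.getD j ⟨0, 0⟩) = true := by
    apply List.all_eq_true.mp lv1_valid
    rw [List.getD_eq_getElem _ _ (by rw [lv1_len]; exact hj)]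
    exact List.getElem_mem _
  rw [show gJ = gP 9 511 315 Cfsg.Agent.Lib.Compute.Schur2.J2.es J315 from rfl, coe_wordEl_gP Cfsg.Agent.S2040.hmem]
  ext i
  rw [permOf_apply hv, wordEl_gPerm Cfsg.Agent.S2040.validEs]
  exact Nat.eq_of_beq_eq_true ((allB_iff _ _).mp ((allB_iff _ _).mp lv1_chk j hj) i i.2)

theorem word_SS {j : ℕ} (hj : j < 3) : wordEl (ltr gH) (lvw.getD j []) ∈ SS HH bb := by
  rw [mem_SS, bb_inv, coe_wordEl_gH, wordEl_g0 (lvw_lt j hj), b_conj hj]
  exact word_mem_HH (bws_lt j hj)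

theorem VV_le : VV ≤ SS HH bb := by
  intro v hv
  have hv' : κ v ∈ stabilizer J315 (0 : Fin 315) := hv
  set D : Subgroup (Equiv.Perm (Fin 315)) := ((SS HH bb).map κ.toMonoidHom).map J315.subtype with hD
  have h1 : ((κ v : J315) : Equiv.Perm (Fin 315)) ∈ chainGroup 9 511 315
      [Cfsg.Agent.Lib.Sporadic.J2.Data3.lv1, Cfsg.Agent.Lib.Sporadic.J2.Data3.lv2] := by
    rw [← chain_stab Cfsg.Agent.Lib.Sporadic.J2.ChainCheck.chain_ok lv0_base]
    refine ⟨(κ v).2, ?_⟩
    exact hv'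
  have hle : chainGroup 9 511 315
      [Cfsg.Agent.Lib.Sporadic.J2.Data3.lv1, Cfsg.Agent.Lib.Sporadic.J2.Data3.lv2] ≤ D := by
    apply (Subgroup.closure_le _).2
    rintro _ ⟨e, he, rfl⟩
    obtain ⟨j, hj, rfl⟩ := List.getElem_of_mem (show e ∈ Cfsg.Agent.Lib.Sporadic.J2.Data3.lv1.gens from he)
    have hj' : j < 3 := by rwa [lv1_len] at hj
    have h2 := lv1_perm hj'
    rw [List.getD_eq_getElem _ _ hj] at h2
    show permOf 9 511 315 _ ∈ D
    rw [h2]
    exact ⟨wordEl (ltr gJ) (lvw.getD j []), ⟨_, word_SS hj', κ_word _⟩, rfl⟩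
  obtain ⟨d, ⟨s, hs, e1⟩, e2⟩ := hle h1
  have h3 : d = κ v := Subtype.ext e2
  have h4 : s = v := κ.injective (e1.trans h3)
  rwa [← h4]

/-! ### The group preserves a set of vectors -/

/-- The set of vectors, on codes. -/
def inO (c : ℕ) : Bool := Nat.testBit oMask c

theorem O_chk : allB (fun j => allB (fun c => !(inO c) || (inO (mvA (TM (2 * j)) c 6) && Nat.blt (mvA (TM (2 * j)) c 6) 4096))
    4096) 3 = true := by decide +kernel

/-- The set of vectors. -/
def Os : Set (Fin 6 → GF4) := {v | ∃ c, c < 4096 ∧ inO c = true ∧ decV e6 c = v}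

/-- The property of keeping the set. -/
def Pres (g : L0) : Prop := ∀ v ∈ Os, Matrix.mulVec ((rho g : GL (Fin 6) GF4) : Matrix (Fin 6) (Fin 6) GF4) v ∈ Os

theorem Pres_one : Pres 1 := by
  intro v hv
  rw [map_one]
  show Matrix.mulVec (1 : Matrix (Fin 6) (Fin 6) GF4) v ∈ Os
  rwa [Matrix.one_mulVec]

theorem Pres_mul {g h : L0} (hg : Pres g) (hh : Pres h) : Pres (g * h) := by
  intro v hv
  rw [map_mul]
  show Matrix.mulVec (((rho g : GL (Fin 6) GF4) : Matrix (Fin 6) (Fin 6) GF4) * ((rho h : GL (Fin 6) GF4) : Matrix (Fin 6) (Fin 6) GF4)) v ∈ Os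
  rw [← Matrix.mulVec_mulVec]
  exact hg _ (hh v hv)

theorem Pres_pow {g : L0} (hg : Pres g) (n : ℕ) : Pres (g ^ n) := by
  induction n with
  | zero =>
    rw [pow_zero]
    exact Pres_one
  | succ n ih =>
    rw [pow_succ]
    exact Pres_mul ih hg

theorem Pres_inv {g : L0} (hg : Pres g) : Pres g⁻¹ := by
  have : g⁻¹ = g ^ (orderOf g - 1) := by
    rw [eq_comm, ← mul_eq_one_iff_eq_inv, ← pow_succ, Nat.sub_add_cancel (orderOf_pos g), pow_orderOf_eq_one]
  rw [this]
  exact Pres_pow hg _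

theorem Pres_g0 (j : ℕ) : Pres (g0 j) := by
  by_cases hj : j < 3
  · rw [g0_lt hj]
    rintro _ ⟨c, hc, hi, rfl⟩
    have hlt : 2 * j < 8 := by omega
    rw [rho_Y hlt, matT_mulVec e6 (TM_ok _ hlt)]
    have h1 := (allB_iff _ _).mp ((allB_iff _ _).mp O_chk j hj) c hc
    simp only [Bool.or_eq_true, Bool.not_eq_true', Bool.and_eq_true, Nat.blt_eq] at h1
    rcases h1 with h1 | ⟨h1, h2⟩
    · rw [h1] at hi
      exact absurd hi (by decide)
    · exact ⟨_, h2, h1, rfl⟩
  · have : g0 j = 1 := if_neg hj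
    rw [this]
    exact Pres_one

theorem Pres_HH {g : L0} (hg : g ∈ HH) : Pres g := by
  induction hg using Subgroup.closure_induction with
  | mem x hx =>
    obtain ⟨j, -, rfl⟩ := hx
    exact Pres_g0 j
  | one => exact Pres_one
  | mul x y _ _ hx hy => exact Pres_mul hx hy
  | inv x _ hx => exact Pres_inv hx

theorem not_mem_of_witness {u : List ℕ} (hu : ∀ x ∈ u, x < 8) {c : ℕ} (hc : c < 4096) (hi : inO c = true)
    (h1 : wv TM 6 u c < 4096) (h2 : inO (wv TM 6 u c) = false) : wordEl Y u ∉ HH := by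
  intro hm
  have h3 := Pres_HH hm (decV e6 c) ⟨c, hc, hi, rfl⟩
  rw [map_wordEl] at h3
  rw [word_mulVec e6 (m := 8) (T := TM) TM_ok (fun j hj => rho_Y hj) u hu] at h3
  obtain ⟨c', hc', hi', e⟩ := h3
  have h5 : c' = wv TM 6 u c := decV_inj e6 (by norm_num; exact hc') (by norm_num; exact h1) e
  rw [h5, h2] at hi'
  exact absurd hi' (by decide)

theorem ha_out : ∃ h : HH, aa⁻¹ * h * aa ∉ HH := by
  refine ⟨gH 2, ?_⟩
  rw [aa_inv]
  show aa * g0 2 * aa ∉ HH
  have e0 : g0 2 = Y 4 := g0_lt (j := 2) (by norm_num)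
  rw [e0]
  have h := not_mem_of_witness (u := [6, 4, 6]) (c := 4) (by decide) (by decide) (by decide +kernel) (by decide +kernel)
    (by decide +kernel)
  rw [wordEl_cons, wordEl_cons, wordEl_cons, wordEl_nil, one_mul] at h
  exact h

theorem hb_out : ∃ h : HH, bb⁻¹ * h * bb ∉ HH := by
  refine ⟨gH 0, ?_⟩
  rw [bb_inv]
  show bb * g0 0 * bb ∉ HH
  have e0 : g0 0 = Y 0 := g0_lt (j := 0) (by norm_num)
  rw [e0]
  have h := not_mem_of_witness (u := [7, 0, 7]) (c := 1) (by decide) (by decide) (by decide +kernel) (by decide +kernel)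
    (by decide +kernel)
  rw [wordEl_cons, wordEl_cons, wordEl_cons, wordEl_nil, one_mul] at h
  exact h

/-- **The main statement for the field with four elements.** -/
theorem main_GF4 : ∃ H : Subgroup L0, IsCoatom H ∧ Cfsg.Spor.IsoJ2 H ∧
    ∀ x : L0, x ∉ H → IsCoatom ((H ⊓ H.map (MulAut.conj x).toMonoidHom).subgroupOf H) := by
  have h := extPrim (H := HH) coatom_UU coatom_VV index_UU index_VV card_L0 UU_le VV_le ha_out hb_out
  exact ⟨HH, h.1, ⟨κ.trans isoJ.symm⟩, h.2⟩

end Cfsg.Agent.Lib.Compute.G24J2
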